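/-
A group generated by its `p`-elements is not covered, as far as these elements go, by `p` or fewer
proper subgroups.
-/
import Mathlib

set_option autoImplicit false
set_option linter.style.haveILetI false

namespace CfsgLib.CoverPElements

variable {G : Type*} [Group G]

/-- A finite `p`-group is not the union of `p` proper subgroups. -/
theorem le_card_of_pGroup [Finite G] {p : ℕ} [hp : Fact p.Prime] (hG : IsPGroup p G) {ι : Type*}
    [Fintype ι] (K : ι → Subgroup G) (hK : ∀ i, K i ≠ ⊤) (hcov : ∀ g : G, ∃ i, g ∈ K i) :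
    p + 1 ≤ Fintype.card ι := by
  classical
  by_contra hk
  haveI := Fintype.ofFinite G
  obtain ⟨i0, -⟩ := hcov 1
  obtain ⟨n, hn⟩ := IsPGroup.iff_card.1 hG
  have hb : ∀ i, Nat.card (K i) * p ≤ Nat.card G := by
    intro i
    obtain ⟨m, hm⟩ := IsPGroup.iff_card.1 (hG.to_subgroup (K i))
    have hlt : Nat.card (K i) < Nat.card G := lt_of_le_of_ne (Subgroup.card_le_card_group _)
      fun h => hK i (Subgroup.eq_top_of_card_eq _ h)
    rw [hm, hn, ← pow_succ] at *
    exact Nat.pow_le_pow_right hp.out.pos ((Nat.pow_lt_pow_iff_right hp.out.one_lt).1 hlt)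
  let S : ι → Finset G := fun i => (Finset.univ.filter (· ∈ K i)).erase 1
  have hsub : (Finset.univ : Finset G).erase 1 ⊆ Finset.univ.biUnion S := by
    intro g hg
    obtain ⟨i, hi⟩ := hcov g
    exact Finset.mem_biUnion.2 ⟨i, Finset.mem_univ i,
      Finset.mem_erase.2 ⟨(Finset.mem_erase.1 hg).1, Finset.mem_filter.2 ⟨Finset.mem_univ g, hi⟩⟩⟩
  have hSc : ∀ i, (S i).card + 1 = Nat.card (K i) := by
    intro i
    rw [Finset.card_erase_add_one (Finset.mem_filter.2 ⟨Finset.mem_univ 1, one_mem _⟩),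
      Nat.card_eq_fintype_card]
    exact (Fintype.card_subtype _).symm
  have h1 := (Finset.card_le_card hsub).trans Finset.card_biUnion_le
  rw [Finset.card_erase_of_mem (Finset.mem_univ 1), Finset.card_univ,
    ← Nat.card_eq_fintype_card] at h1
  have h2 : ∀ i ∈ (Finset.univ : Finset ι), ((S i).card + 1) * p ≤ Nat.card G :=
    fun i _ => hSc i ▸ hb i
  have h3 := Finset.sum_le_sum h2
  rw [← Finset.sum_mul, Finset.sum_add_distrib, Finset.sum_const, Finset.sum_const, Finset.card_univ,
    smul_eq_mul, smul_eq_mul, mul_one] at h3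
  have h4 : 1 ≤ Fintype.card ι := Fintype.card_pos_iff.2 ⟨i0⟩
  have h5 : Fintype.card ι * Nat.card G ≤ p * Nat.card G := Nat.mul_le_mul_right _ (by omega)
  have h6 : (∑ i, (S i).card + Fintype.card ι) * p ≤ Nat.card G * p := by
    rw [mul_comm (Nat.card G) p]; exact h3.trans h5
  have h7 := Nat.le_of_mul_le_mul_right h6 hp.out.pos
  -- equality everywhere forces one subgroup only
  have h8 : Fintype.card ι = 1 := by omega
  have hι := Fintype.card_eq_one_iff.1 h8
  obtain ⟨i1, hi1⟩ := hι
  exact hK i1 (eq_top_iff.2 fun g _ => by obtain ⟨i, hi⟩ := hcov g; rwa [hi1 i] at hi)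

/-- The subgroup generated by the `p`-elements of `H`. -/
def pHull (p : ℕ) (H : Subgroup G) : Subgroup G :=
  Subgroup.closure {g : G | g ∈ H ∧ ∃ k : ℕ, orderOf g = p ^ k}

theorem pHull_le (p : ℕ) (H : Subgroup G) : pHull p H ≤ H :=
  (Subgroup.closure_le _).2 fun _ hg => hg.1

theorem pHull_idem (p : ℕ) (H : Subgroup G) : pHull p (pHull p H) = pHull p H :=
  le_antisymm (pHull_le p _) ((Subgroup.closure_le _).2 fun _ hg =>
    Subgroup.subset_closure ⟨Subgroup.subset_closure hg, hg.2⟩)

theorem pHull_map (p : ℕ) (H : Subgroup G) (e : G ≃* G) :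
    pHull p (H.map e.toMonoidHom) = (pHull p H).map e.toMonoidHom := by
  rw [pHull, pHull, MonoidHom.map_closure]
  congr 1
  ext g
  constructor
  · rintro ⟨⟨a, ha, rfl⟩, k, hk⟩
    exact ⟨a, ⟨ha, k, by rw [← MulEquiv.orderOf_eq e a]; exact hk⟩, rfl⟩
  · rintro ⟨a, ⟨ha, k, hk⟩, rfl⟩
    exact ⟨⟨a, ha, rfl⟩, k, (MulEquiv.orderOf_eq e a).trans hk⟩

/-- The covering bound, by induction on the order. -/
theorem add_one_le_card {G : Type*} [Group G] [Finite G] {p : ℕ} [hp : Fact p.Prime]
    (hgen : Subgroup.closure {g : G | ∃ k : ℕ, orderOf g = p ^ k} = ⊤)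
    {ι : Type*} [Fintype ι] (K : ι → Subgroup G) (hK : ∀ i, K i ≠ ⊤)
    (hcov : ∀ g : G, (∃ k : ℕ, orderOf g = p ^ k) → ∃ i, g ∈ K i) :
    p + 1 ≤ Fintype.card ι := by
  classical
  suffices key : ∀ (n : ℕ) (H : Subgroup G), Nat.card H ≤ n → pHull p H = H →
      ∀ (J : ι → Subgroup G), (∀ i, ¬ H ≤ J i) →
      (∀ g ∈ H, (∃ k : ℕ, orderOf g = p ^ k) → ∃ i, g ∈ J i) → p + 1 ≤ Fintype.card ι by
    refine key (Nat.card G) ⊤ (Subgroup.card_le_card_group _) ?_ K (fun i h => hK i (top_le_iff.1 h))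
      (fun g _ hg => hcov g hg)
    rw [pHull, ← hgen]
    congr 1
    ext g
    simp [hgen]
  intro n
  induction n with
  | zero => intro H hH; exact absurd hH (by have := Nat.card_pos (α := H); omega)
  | succ n ih =>
    intro H hHn hHp J hJ hJcov
    by_contra hk
    by_cases hpg : IsPGroup p H
    · refine hk (le_card_of_pGroup hpg (fun i => (J i).subgroupOf H) (fun i h => hJ i
        (Subgroup.subgroupOf_eq_top.1 h)) fun g => ?_)
      obtain ⟨k, hk'⟩ := IsPGroup.iff_orderOf.1 hpg g
      exact hJcov g g.2 ⟨k, (Subgroup.orderOf_coe g).trans hk'⟩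
    -- every proper `p`-generated subgroup lies in a member
    have hmem : ∀ L : Subgroup G, L ≤ H → L ≠ H → pHull p L = L → ∃ i, L ≤ J i := by
      intro L hL hLne hLp
      by_contra hcon
      push Not at hcon
      refine hk (ih L ?_ hLp J hcon fun g hg => hJcov g (hL hg))
      have : Nat.card L < Nat.card H := lt_of_le_of_ne (Subgroup.card_le_of_le hL) fun h =>
        hLne (Subgroup.eq_of_le_of_card_ge hL h.ge)
      omega
    let P : Subgroup G → Prop := fun L => L ≤ H ∧ L ≠ H ∧ pHull p L = L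
    let 𝓜 : Set (Subgroup G) := {L | Maximal P L}
    have h𝓜 : 𝓜 ⊆ Set.range fun i => pHull p (H ⊓ J i) := by
      rintro L ⟨⟨hL1, hL2, hL3⟩, hmax⟩
      obtain ⟨i, hi⟩ := hmem L hL1 hL2 hL3
      have hle : L ≤ pHull p (H ⊓ J i) := by
        conv_lhs => rw [← hL3]
        exact Subgroup.closure_mono fun g hg => ⟨⟨hL1 hg.1, hi hg.1⟩, hg.2⟩
      have hP : P (pHull p (H ⊓ J i)) := ⟨(pHull_le _ _).trans inf_le_left,
        fun h => hJ i (h.ge.trans ((pHull_le _ _).trans inf_le_right)), pHull_idem _ _⟩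
      exact ⟨i, le_antisymm (hmax hP hle) hle⟩
    have hcard : Nat.card 𝓜 ≤ Fintype.card ι := by
      have := Nat.card_mono (Set.finite_range _) h𝓜
      refine this.trans ?_
      rw [← Nat.card_eq_fintype_card]
      exact Finite.card_range_le _
    -- a `p`-element fixing one maximal subgroup fixes all of them
    have hfix : ∀ a ∈ H, (∃ k : ℕ, orderOf a = p ^ k) → ∀ M0 ∈ 𝓜, a ∈ M0 → ∀ M ∈ 𝓜,
        M.map (MulAut.conj a).toMonoidHom = M := by
      intro a ha hak M0 hM0 haM0
      obtain ⟨k, hk'⟩ := hak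
      have hconjH : ∀ b ∈ H, H.map (MulAut.conj b).toMonoidHom = H := fun b hb =>
        Subgroup.eq_of_le_of_card_ge (by
          rintro _ ⟨z, hz, rfl⟩
          exact mul_mem (mul_mem hb hz) (inv_mem hb))
          (Nat.card_congr (H.equivMapOfInjective _ (MulAut.conj b).injective).toEquiv).le
      have hPmap : ∀ b ∈ H, ∀ L, P L → P (L.map (MulAut.conj b).toMonoidHom) := by
        rintro b hb L ⟨h1, h2, h3⟩
        refine ⟨(Subgroup.map_mono h1).trans (hconjH b hb).le, fun h => h2 ?_, ?_⟩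
        · exact Subgroup.map_injective (MulAut.conj b).injective (h.trans (hconjH b hb).symm)
        · rw [pHull_map, h3]
      have hback : ∀ b : G, ∀ L : Subgroup G,
          (L.map (MulAut.conj b⁻¹).toMonoidHom).map (MulAut.conj b).toMonoidHom = L := fun b L => by
        rw [Subgroup.map_map]
        refine Eq.trans ?_ (Subgroup.map_id L)
        congr 1
        ext z
        simp [mul_assoc]
      have hM : ∀ M ∈ 𝓜, M.map (MulAut.conj a).toMonoidHom ∈ 𝓜 := by
        rintro M ⟨hM, hmax⟩
        refine ⟨hPmap a ha M hM, fun L hL hle => ?_⟩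
        have h1 := hmax (hPmap a⁻¹ (inv_mem ha) L hL) (by
          have := Subgroup.map_mono (f := (MulAut.conj a⁻¹).toMonoidHom) hle
          rw [show M = (M.map (MulAut.conj a).toMonoidHom).map (MulAut.conj a⁻¹).toMonoidHom from by
            conv_lhs => rw [← hback a⁻¹ M, inv_inv]]
          exact this)
        calc L = (L.map (MulAut.conj a⁻¹).toMonoidHom).map (MulAut.conj a).toMonoidHom :=
              (hback a L).symm
          _ ≤ _ := Subgroup.map_mono h1
      haveI : Fintype 𝓜 := Fintype.ofFinite _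
      let f : Function.End 𝓜 := fun M => ⟨_, hM M M.2⟩
      have hiter : ∀ (j : ℕ) (M : 𝓜),
          (((f ^ j) M : 𝓜) : Subgroup G) = (M : Subgroup G).map (MulAut.conj (a ^ j)).toMonoidHom := by
        intro j
        induction j with
        | zero =>
          intro M
          rw [pow_zero, pow_zero, map_one]
          exact (Subgroup.map_id _).symm
        | succ j hj =>
          intro M
          rw [pow_succ', pow_succ']
          show (((f ^ j) M : 𝓜) : Subgroup G).map (MulAut.conj a).toMonoidHom = _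
          rw [hj, Subgroup.map_map, map_mul]
          rfl
      have hf : f ^ p ^ k = 1 := funext fun M => Subtype.ext (by
        rw [hiter, ← hk', pow_orderOf_eq_one, map_one]
        exact Subgroup.map_id _)
      have hmod := Equiv.Perm.card_fixedPoints_modEq hf
      have hM0f : f ⟨M0, hM0⟩ = ⟨M0, hM0⟩ := Subtype.ext (Subgroup.eq_of_le_of_card_ge (by
        rintro _ ⟨z, hz, rfl⟩
        exact mul_mem (mul_mem haM0 hz) (inv_mem haM0))
        (Nat.card_congr (M0.equivMapOfInjective _ (MulAut.conj a).injective).toEquiv).le)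
      have h1 : 1 ≤ Fintype.card (Function.fixedPoints f) := Fintype.card_pos_iff.2 ⟨⟨_, hM0f⟩⟩
      have h2 : Fintype.card (Function.fixedPoints f) ≤ Fintype.card 𝓜 := Fintype.card_subtype_le _
      have h3 : Fintype.card 𝓜 ≤ p := by
        rw [← Nat.card_eq_fintype_card]; omega
      have h4 : Fintype.card 𝓜 = Fintype.card (Function.fixedPoints f) := by
        obtain ⟨c, hc⟩ := (Nat.modEq_iff_dvd' h2).1 hmod.symm
        rcases c with _ | c
        · omega
        · rw [Nat.mul_succ] at hc; omega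
      intro M hMm
      have h5 : Function.Surjective (Subtype.val : Function.fixedPoints f → 𝓜) :=
        ((Fintype.bijective_iff_injective_and_card _).2
          ⟨Subtype.val_injective, h4.symm⟩).2
      obtain ⟨⟨M', hM'⟩, rfl⟩ := h5 ⟨M, hMm⟩
      exact congrArg Subtype.val hM'
    -- the maximal subgroup containing a Sylow subgroup is normal
    haveI : Finite H := inferInstance
    obtain ⟨S⟩ := (inferInstance : Nonempty (Sylow p H))
    have hsylP : ∀ T : Sylow p H, ∃ M ∈ 𝓜, (T : Subgroup H).map H.subtype ≤ M := by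
      intro T
      have hPT : P ((T : Subgroup H).map H.subtype) := by
        refine ⟨Subgroup.map_subtype_le _, fun h => hpg ?_, le_antisymm (pHull_le _ _) ?_⟩
        · have := T.2.map H.subtype
          rwa [h] at this
        · intro g hg
          refine Subgroup.subset_closure ⟨hg, ?_⟩
          obtain ⟨k, hk'⟩ := IsPGroup.iff_orderOf.1 (T.2.map H.subtype) ⟨g, hg⟩
          exact ⟨k, (Subgroup.orderOf_mk g hg).symm.trans hk'⟩
      obtain ⟨M, hle, hM⟩ := Finite.exists_le_maximal hPT
      exact ⟨M, hM, hle⟩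
    obtain ⟨M, hMm, hSM⟩ := hsylP S
    have hnorm : H ≤ Subgroup.normalizer (M : Set G) := by
      rw [← hHp]
      refine (Subgroup.closure_le _).2 fun a ha => ?_
      obtain ⟨T, hT⟩ : ∃ T : Sylow p H, (⟨a, ha.1⟩ : H) ∈ (T : Subgroup H) := by
        obtain ⟨k, hk'⟩ := ha.2
        obtain ⟨T, hT⟩ := (IsPGroup.of_card_dvd_pow (G := Subgroup.zpowers (⟨a, ha.1⟩ : H)) (n := k)
          (by rw [Nat.card_zpowers, Subgroup.orderOf_mk, hk'])).exists_le_sylow
        exact ⟨T, hT (Subgroup.mem_zpowers _)⟩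
      obtain ⟨M0, hM0, hTM0⟩ := hsylP T
      have := hfix a ha.1 ha.2 M0 hM0 (hTM0 ⟨_, hT, rfl⟩) M hMm
      refine Subgroup.mem_normalizer_fintype fun z hz => ?_
      rw [← this]
      exact ⟨z, hz, rfl⟩
    have hMn : (M.subgroupOf H).Normal := Subgroup.normal_subgroupOf_of_le_normalizer hnorm
    refine hMm.1.2.1 (le_antisymm hMm.1.1 ?_)
    conv_lhs => rw [← hHp]
    refine (Subgroup.closure_le _).2 fun a ha => ?_
    obtain ⟨k, hk'⟩ := ha.2
    obtain ⟨T, hT⟩ := (IsPGroup.of_card_dvd_pow (G := Subgroup.zpowers (⟨a, ha.1⟩ : H)) (n := k)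
      (by rw [Nat.card_zpowers, Subgroup.orderOf_mk, hk'])).exists_le_sylow
    obtain ⟨g, hg⟩ := MulAction.exists_smul_eq H S T
    have ha' : (⟨a, ha.1⟩ : H) ∈ (g • S : Sylow p H) := by
      rw [hg]; exact hT (Subgroup.mem_zpowers _)
    have hSle : (S : Subgroup H) ≤ M.subgroupOf H := fun z hz => hSM ⟨z, hz, rfl⟩
    obtain ⟨z, hz, hza⟩ := ha'
    have hza' : g * z * g⁻¹ = ⟨a, ha.1⟩ := hza
    have := hMn.conj_mem z (hSle hz) g
    rw [hza'] at this
    exact this

end CfsgLib.CoverPElements
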